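import Cfsg.Agent.Lib.AD.Code

/-! # Checking certificates: orbit sums under non-solvable subgroups span everything -/

noncomputable section
namespace Cfsg.Agent.AD.Pc
open Equiv

variable {n p : ℕ} {V : Type*} [AddCommGroup V]

abbrev Ct := ℕ → ℕ → ℕ

def Good (R : ℕ → V → Prop) (Φ : Perm (Fin n) → V) (k : Ct) : Prop := ∀ g s, R (k (cd g) s) (s • Φ g)

def stp (n p i j t e : ℕ) (k : Ct) : Ct := fun l s =>
  bif Nat.blt (dg 4 l j) (dg 4 l i) then frc (cmp n l t) fun l' => k l' (Nat.mod (Nat.mul s e) p) else k l s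

def ivs (n : ℕ) (k : Ct) : Ct := fun l s => frc (inv n l) fun l' => k l' s

variable {R : ℕ → V → Prop} {Φ : Perm (Fin n) → V} {k : Ct}

theorem mod_smul (hp : ∀ v : V, p • v = 0) (a : ℕ) (v : V) : (a % p) • v = a • v := by
  conv_rhs => rw [← Nat.mod_add_div a p, add_smul, mul_smul, hp, add_zero]

theorem Good.stp (hn : n ≤ 16) (hp : ∀ v : V, p • v = 0) (h : Good R Φ k) (i j : ℕ) {t e : ℕ}
    (τ : Perm (Fin n)) (ht : cd τ = t) (he : ∀ g, Φ g = e • Φ (g * τ)) : Good R Φ (stp n p i j t e k) := by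
  intro g s
  unfold Pc.stp
  cases Nat.blt (dg 4 (cd g) j) (dg 4 (cd g) i)
  · exact h g s
  · rw [cond_true, frc_eq, ← ht, cmp_cd hn, he g, smul_smul, ← mod_smul hp]
    exact h _ _

theorem Good.ivs (hn : n ≤ 16) (h : Good R (fun g => Φ g⁻¹) k) : Good R Φ (ivs n k) := fun g s => by
  have := h g⁻¹ s
  simp only [inv_inv] at this
  rw [Pc.ivs, frc_eq, inv_cd hn]
  exact this

theorem Good.pt (hn : n ≤ 16) (W M T : ℕ) (ix : ℕ → ℕ) :
    Good (Rp W M T fun c => Φ (tp n c)) Φ (pt W M T ix) := fun g s => by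
  have := Rp.pt (W := W) (M := M) (T := T) (Ψ := fun c => Φ (tp n c)) ix (cd g) s
  rwa [tp_cd hn] at this

def sm {α : Type} (f : α → ℕ) (L : List α) : ℕ := List.rec 0 (fun a _ r => Nat.add (f a) r) L
def alL {α : Type} (f : α → Bool) (L : List α) : Bool := List.rec true (fun a _ r => f a && r) L

theorem alL_imp {α : Type} {f : α → Bool} {L : List α} (h : alL f L = true) : ∀ a ∈ L, f a = true := by
  induction L with
  | nil => simp
  | cons a L ih =>
    have h : (f a && alL f L) = true := h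
    rw [Bool.and_eq_true] at h
    simpa using ⟨h.1, ih h.2⟩

variable {W M T : ℕ} {Ψ : ℕ → V}

theorem Rp.sm {α : Type} {f : α → ℕ} {F : α → V} {L : List α} (h : ∀ a ∈ L, Rp W M T Ψ (f a) (F a)) :
    Rp W M T Ψ (sm f L) (L.map F).sum := by
  induction L with
  | nil => exact Rp.zero
  | cons a L ih => exact (h a (by simp)).add (ih fun b hb => h b (by simp [hb]))

theorem Rp.sm0 {α : Type} {f : α → ℕ} {L : List α} (h : ∀ a ∈ L, Rp W M T Ψ (f a) 0) :
    Rp W M T Ψ (Pc.sm f L) 0 := by simpa using Rp.sm (F := fun _ => (0 : V)) h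

def orb (n : ℕ) (k : Ct) (g c : ℕ) (O : List ℕ) : ℕ := sm (fun o => frc (cmp n g o) fun l => k l c) O

theorem Good.orb (hn : n ≤ 16) (h : Good (Rp W M T Ψ) Φ k) {g : ℕ} (hg : isP n g = true) (c : ℕ)
    {O : List ℕ} (hO : alL (isP n) O = true) :
    Rp W M T Ψ (orb n k g c O) (c • (O.map fun o => Φ (tp n g * tp n o)).sum) := by
  rw [List.smul_sum, List.map_map]
  refine Rp.sm fun o ho => ?_
  have e : cmp n g o = cd (tp n g * tp n o) := by rw [← cmp_cd hn, cd_tp hg, cd_tp (alL_imp hO o ho)]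
  rw [frc_eq, e]
  exact h _ _

/-! non-solvable two-generator subgroups -/
def wd (n s t : ℕ) (w : List Bool) : ℕ := List.rec (idc n) (fun b _ r => cmp n (bif b then s else t) r) w

def cm (n s t u : ℕ) (w : List Bool × List Bool) : Bool :=
  Nat.beq (cmp n (wd n s t w.1) (wd n s t w.2)) (cmp n u (cmp n (wd n s t w.2) (wd n s t w.1)))

def ns (n s t : ℕ) (w₁ w₂ : List Bool × List Bool) : Bool :=
  isP n s && isP n t && !Nat.beq s (idc n) && cm n s t s w₁ && cm n s t t w₂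

theorem not_sol (hn : n ≤ 16) {s t : ℕ} {w₁ w₂ : List Bool × List Bool} (h : ns n s t w₁ w₂ = true)
    {K : Subgroup (Perm (Fin n))} (hs : tp n s ∈ K) (ht : tp n t ∈ K) : ¬ Group.IsSolvable K := by
  simp only [ns, Bool.and_eq_true, Bool.not_eq_true'] at h
  obtain ⟨⟨⟨⟨h1, h2⟩, h3⟩, h4⟩, h5⟩ := h
  intro hK
  set H := Subgroup.closure {tp n s, tp n t} with hH
  have hs' : tp n s ∈ H := Subgroup.subset_closure (by simp)
  have ht' : tp n t ∈ H := Subgroup.subset_closure (by simp)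
  have hw (w : List Bool) : ∃ g ∈ H, wd n s t w = cd g := by
    induction w with
    | nil => exact ⟨1, one_mem _, idc_eq⟩
    | cons b w ih =>
      obtain ⟨g, hg, e⟩ := ih
      have : wd n s t (b :: w) = cmp n (bif b then s else t) (wd n s t w) := rfl
      cases b
      · exact ⟨_, mul_mem ht' hg, by rw [this, e, ← cmp_cd hn, cd_tp h2]; rfl⟩
      · exact ⟨_, mul_mem hs' hg, by rw [this, e, ← cmp_cd hn, cd_tp h1]; rfl⟩
  have hc {u : ℕ} (hu : isP n u = true) {w} (e : cm n s t u w = true) : tp n u ∈ ⁅H, H⁆ := by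
    obtain ⟨a, ha, ea⟩ := hw w.1
    obtain ⟨b, hb, eb⟩ := hw w.2
    rw [cm, ea, eb, ← cd_tp hu, cmp_cd hn, cmp_cd hn, cmp_cd hn, Nat.beq_eq] at e
    have := Subgroup.commutator_mem_commutator ha hb
    rwa [commutatorElement_def, cd_inj hn e, show ∀ u : Perm (Fin n), u * (b * a) * a⁻¹ * b⁻¹ = u from
      fun u => by group] at this
  have hle : H ≤ K := (Subgroup.closure_le _).2 (by simp [Set.insert_subset_iff, hs, ht])
  haveI : Group.IsSolvable H := Group.isSolvable_of_isSolvable_injective (Subgroup.inclusion_injective hle)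
  haveI : Nontrivial H := ⟨⟨⟨_, hs'⟩, 1, fun e => by
    rw [← cd_tp h1, show tp n s = 1 from congrArg Subtype.val e, idc_eq] at h3
    simp at h3⟩⟩
  refine (Group.IsSolvable.commutator_lt_top_of_nontrivial H).ne (Subgroup.map_injective H.subtype_injective ?_)
  rw [Subgroup.map_subtype_commutator, ← MonoidHom.range_eq_map, Subgroup.range_subtype]
  exact le_antisymm (Subgroup.commutator_le.2 fun a ha b hb => by
    rw [commutatorElement_def]; exact mul_mem (mul_mem (mul_mem ha hb) (inv_mem ha)) (inv_mem hb)) ((Subgroup.closure_le _).2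
    (by simp [Set.insert_subset_iff, hc h1 h4, hc h2 h5]))

/-! the certificate -/
variable [DistribMulAction (Perm (Fin n)) V]

/-- the sum over `O` is invariant under `s` -/
def inv1 (n p : ℕ) (nR : Ct → Ct) (M : ℕ) (O : List ℕ) (s : ℕ) : ℕ :=
  frc (sm (fun o => nR (fun l _ => Nat.shiftLeft l (Nat.mul 40 (Nat.mod l M))) o 1) O) fun T =>
    fz p 16 M (Nat.add (orb n (nR (pt 16 M T fun c => Nat.mod c M)) s 1 O)
      (orb n (nR (pt 16 M T fun c => Nat.mod c M)) (idc n) (Nat.pred p) O))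

theorem tp_idc (hn : n ≤ 16) : tp n (idc n) = 1 := by rw [idc_eq, tp_cd hn]

theorem inv1_imp (hn : n ≤ 16) (hp : ∀ v : V, p • v = 0) (h0 : 0 < p) (hi : isP n (idc n) = true)
    {nR : Ct → Ct} {w : V} (hR : ∀ (R : ℕ → V → Prop) k, Good R (fun g : Perm (Fin n) => g • w) k →
      Good R (fun g : Perm (Fin n) => g • w) (nR k))
    {M s : ℕ} {O : List ℕ} (hs : isP n s = true) (hO : alL (isP n) O = true) (h : inv1 n p nR M O s = 0) :
    tp n s • (O.map fun o => tp n o • w).sum = (O.map fun o => tp n o • w).sum := by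
  rw [inv1, frc_eq] at h
  have := (((hR _ _ (Good.pt hn 16 M _ _)).orb hn hs 1 hO).add ((hR _ _ (Good.pt hn 16 M _ _)).orb hn hi _ hO)).fz hp h
  simp only [tp_idc hn, one_mul, one_smul, mul_smul] at this
  rw [List.smul_sum, List.map_map]
  refine (eq_neg_of_add_eq_zero_left this).trans (neg_eq_of_add_eq_zero_left ?_)
  rw [← succ_nsmul', Nat.pred_eq_sub_one, Nat.sub_add_cancel h0, hp]

abbrev Gp := ℕ × ℕ × ℕ × List ℕ × List (List ℕ)

def gpOk (n p : ℕ) (nR : Ct → Ct) (X : List (ℕ × ℕ)) (x : Gp) : Bool :=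
  X.elem (x.1, x.2.1) && isP n x.1 && isP n x.2.1 && alL (isP n) x.2.2.2.1 &&
  alL (alL fun e => isP n (Nat.div e 8)) x.2.2.2.2 &&
  Nat.beq (inv1 n p nR x.2.2.1 x.2.2.2.1 x.1) 0 && Nat.beq (inv1 n p nR x.2.2.1 x.2.2.2.1 x.2.1) 0

def tot (n : ℕ) (k : Ct) (C : List Gp) : ℕ := sm (fun x : Gp =>
  sm (sm fun e => frc (Nat.div e 8) fun g => orb n k g (Nat.mod e 8) x.2.2.2.1) x.2.2.2.2) C

def ok (n p : ℕ) (nR : Ct → Ct) (X : List (ℕ × ℕ)) (k : Ct) (x : List Gp × ℕ) : Prop :=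
  (alL (gpOk n p nR X) x.1 && Nat.beq (tot n k x.1) x.2) = true

theorem main (hn : n ≤ 16) (hp : ∀ v : V, p • v = 0) (h0 : 0 < p) (hi : isP n (idc n) = true)
    {nR nL : Ct → Ct} {w : V} (E : V →+ V)
    (hR : ∀ (R : ℕ → V → Prop) k, Good R (fun g : Perm (Fin n) => g • w) k →
      Good R (fun g : Perm (Fin n) => g • w) (nR k))
    {Φ : Perm (Fin n) → V} (hL : ∀ (R : ℕ → V → Prop) k, Good R Φ k →
      Good R (fun g : Perm (Fin n) => E (g • w)) (nL k))
    {X : List (ℕ × ℕ)} (hX : ∀ x ∈ X, ∀ v : V, tp n x.1 • v = v → tp n x.2 • v = v → v = 0)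
    {M T : ℕ} {ix : ℕ → ℕ} {C : List (List Gp × ℕ)} (hC : C.Forall (ok n p nR X (nL (pt 16 M T ix))))
    (h : fz p 16 M (Nat.add (nL (pt 16 M T ix) (idc n) 1) (sm Prod.snd C)) = 0) : E w = 0 := by
  have hk := hL _ _ (Good.pt hn 16 M T ix)
  have h1 := hk 1 1
  simp only [← idc_eq, one_smul] at h1
  refine (add_zero _).symm.trans ((h1.add (Rp.sm0 fun y hy => ?_)).fz hp h)
  have hC := List.forall_iff_forall_mem.1 hC y hy
  rw [ok, Bool.and_eq_true, Nat.beq_eq] at hC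
  rw [← hC.2]
  refine Rp.sm0 fun x hx => ?_
  have hx := alL_imp hC.1 x hx
  simp only [gpOk, Bool.and_eq_true, Nat.beq_eq, List.elem_eq_mem, decide_eq_true_eq] at hx
  obtain ⟨⟨⟨⟨⟨⟨h1, h2⟩, h3⟩, h4⟩, h5⟩, h6⟩, h7⟩ := hx
  have hu := hX _ h1 _ (inv1_imp hn hp h0 hi hR h2 h4 h6) (inv1_imp hn hp h0 hi hR h3 h4 h7)
  refine Rp.sm0 fun D hD => Rp.sm0 fun e he => ?_
  have := hk.orb hn (alL_imp (alL_imp h5 D hD) e he) (Nat.mod e 8) h4
  have h8 := congrArg (fun v => E (tp n (Nat.div e 8) • v)) hu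
  simp only [smul_zero, map_zero, List.smul_sum, map_list_sum, List.map_map] at h8
  rw [show (List.map (fun o => E ((tp n (e.div 8) * tp n o) • w)) x.2.2.2.1).sum = 0 by
    simpa [Function.comp_def, mul_smul] using h8, smul_zero] at this
  rw [frc_eq]
  exact this

abbrev Yp := (ℕ × ℕ) × (List Bool × List Bool) × (List Bool × List Bool)

theorem hX_of (hn : n ≤ 16)
    (h : ¬ ∃ v : V, v ≠ 0 ∧ ¬ Group.IsSolvable (MulAction.stabilizer (Perm (Fin n)) v)) {Y : List Yp}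
    (hY : alL (fun y : Yp => ns n y.1.1 y.1.2 y.2.1 y.2.2) Y = true) :
    ∀ x ∈ Y.map Prod.fst, ∀ v : V, tp n x.1 • v = v → tp n x.2 • v = v → v = 0 := by
  intro x hx v h1 h2
  obtain ⟨y, hy, rfl⟩ := List.mem_map.1 hx
  by_contra h0
  exact h ⟨v, h0, not_sol hn (alL_imp hY y hy) h1 h2⟩

/-- displacement hashing -/
def hx (P Q M D c : ℕ) : ℕ := Nat.mod (Nat.add (Nat.mod c P) (dg 12 D (Nat.mod c Q))) M

end Cfsg.Agent.AD.Pc
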