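import Mathlib

/-! # Permutations as packed natural numbers; formal sums as packed natural numbers -/

noncomputable section
namespace Cfsg.Agent.AD.Pc
open Equiv Finset

def frc (n : ℕ) (f : ℕ → ℕ) : ℕ := Nat.rec (f 0) (fun m _ => f (Nat.succ m)) n
theorem frc_eq (n : ℕ) (f : ℕ → ℕ) : frc n f = f n := by cases n <;> rfl

def dg (W c i : ℕ) : ℕ := Nat.mod (Nat.shiftRight c (Nat.mul W i)) (Nat.shiftLeft 1 W)
def pk (W : ℕ) (f : ℕ → ℕ) (n : ℕ) : ℕ :=
  Nat.rec 0 (fun i r => Nat.add r (Nat.shiftLeft (f i) (Nat.mul W i))) n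

theorem dg_eq (W c i : ℕ) : dg W c i = c / 2 ^ (W * i) % 2 ^ W := by
  simp [dg, Nat.shiftRight_eq_div_pow, Nat.shiftLeft_eq]; rfl

theorem pk_succ (W : ℕ) (f : ℕ → ℕ) (n : ℕ) : pk W f (n + 1) = pk W f n + f n * 2 ^ (W * n) := by
  simp [pk, Nat.shiftLeft_eq]

theorem pk_eq (W : ℕ) (f : ℕ → ℕ) (n : ℕ) : pk W f n = ∑ i ∈ range n, f i * 2 ^ (W * i) := by
  induction n with
  | zero => rfl
  | succ n ih => rw [pk_succ, sum_range_succ, ih]

theorem pk_lt {W n : ℕ} {f : ℕ → ℕ} (h : ∀ i < n, f i < 2 ^ W) : pk W f n < 2 ^ (W * n) := by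
  induction n with
  | zero => simp [pk]
  | succ n ih =>
    have := ih fun i hi => h i (by omega)
    have h2 := h n (by omega)
    rw [pk_succ, Nat.mul_succ, pow_add]
    nlinarith

theorem dg_pk {W n i : ℕ} {f : ℕ → ℕ} (h : ∀ i < n, f i < 2 ^ W) (hi : i < n) : dg W (pk W f n) i = f i := by
  induction n with
  | zero => omega
  | succ n ih =>
    have h' : ∀ i < n, f i < 2 ^ W := fun i hi => h i (by omega)
    rw [dg_eq, pk_succ]
    rcases Nat.lt_succ_iff_lt_or_eq.1 hi with hi | rfl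
    · obtain ⟨d, rfl⟩ := Nat.exists_eq_add_of_lt hi
      rw [← ih h' hi, dg_eq, show f (i + d + 1) * 2 ^ (W * (i + d + 1)) =
        (2 ^ W * (f (i + d + 1) * 2 ^ (W * d))) * 2 ^ (W * i) by ring,
        Nat.add_mul_div_right _ _ (by positivity), Nat.add_mul_mod_self_left]
    · rw [Nat.add_mul_div_right _ _ (by positivity), Nat.div_eq_of_lt (pk_lt h'), zero_add,
        Nat.mod_eq_of_lt (h i hi)]

theorem pk_congr {W n : ℕ} {f g : ℕ → ℕ} (h : ∀ i < n, f i = g i) : pk W f n = pk W g n := by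
  rw [pk_eq, pk_eq]
  exact sum_congr rfl fun i hi => by rw [h i (mem_range.1 hi)]

variable {n : ℕ}

def cd (g : Perm (Fin n)) : ℕ := pk 4 (fun i => if h : i < n then (g ⟨i, h⟩ : ℕ) else 0) n
def cmp (n a l : ℕ) : ℕ := pk 4 (fun i => dg 4 a (dg 4 l i)) n
def inv (n l : ℕ) : ℕ := Nat.rec 0 (fun i r => Nat.add r (Nat.shiftLeft i (Nat.mul 4 (dg 4 l i)))) n
def idc (n : ℕ) : ℕ := pk 4 (fun i => i) n

theorem dg_cd (hn : n ≤ 16) (g : Perm (Fin n)) (i : Fin n) : dg 4 (cd g) i = g i := by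
  rw [cd, dg_pk _ i.2]
  · simp
  · intro j hj
    have := (g ⟨j, hj⟩).2
    simp only [hj, dite_true]; omega

theorem cd_inj (hn : n ≤ 16) {g h : Perm (Fin n)} (e : cd g = cd h) : g = h :=
  Equiv.ext fun i => Fin.ext (by rw [← dg_cd hn, e, dg_cd hn])

theorem cmp_cd (hn : n ≤ 16) (g h : Perm (Fin n)) : cmp n (cd g) (cd h) = cd (g * h) :=
  pk_congr fun i hi => by
    rw [dg_cd hn h ⟨i, hi⟩, dg_cd hn]; simp [hi]

theorem idc_eq : idc n = cd (1 : Perm (Fin n)) := pk_congr fun i hi => by simp [hi]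

theorem inv_cd (hn : n ≤ 16) (g : Perm (Fin n)) : inv n (cd g) = cd g⁻¹ := by
  have h (m c : ℕ) : inv m c = ∑ i ∈ range m, i * 2 ^ (4 * dg 4 c i) := by
    induction m with
    | zero => rfl
    | succ m ih => rw [sum_range_succ, ← ih]; simp [inv, Nat.shiftLeft_eq]
  rw [h, cd.eq_1 g⁻¹, pk_eq, sum_range, sum_range, ← Equiv.sum_comp g⁻¹]
  refine sum_congr rfl fun i _ => ?_
  rw [dg_cd hn]; simp

open Classical in
def tp (n c : ℕ) : Perm (Fin n) := if h : ∃ g : Perm (Fin n), cd g = c then h.choose else 1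

theorem tp_cd (hn : n ≤ 16) (g : Perm (Fin n)) : tp n (cd g) = g := by
  have h : ∃ g' : Perm (Fin n), cd g' = cd g := ⟨g, rfl⟩
  rw [tp, dif_pos h]; exact cd_inj hn h.choose_spec

def allN (f : ℕ → Bool) (n : ℕ) : Bool := Nat.rec true (fun i r => r && f i) n
theorem allN_imp {f : ℕ → Bool} {m : ℕ} (h : allN f m = true) : ∀ i < m, f i = true := by
  induction m with
  | zero => intro i hi; omega
  | succ m ih =>
    have h : (allN f m && f m) = true := h
    rw [Bool.and_eq_true] at h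
    intro i hi
    rcases Nat.lt_succ_iff_lt_or_eq.1 hi with hi | rfl
    exacts [ih h.1 i hi, h.2]

def isP (n c : ℕ) : Bool := Nat.beq c (pk 4 (dg 4 c) n) &&
  allN (fun i => Nat.blt (dg 4 c i) n && Nat.beq (dg 4 (inv n c) (dg 4 c i)) i) n

theorem cd_tp {c : ℕ} (h : isP n c = true) : cd (tp n c) = c := by
  rw [isP, Bool.and_eq_true] at h
  have h2 := fun i hi => by simpa using allN_imp h.2 i hi
  have hi : Function.Injective fun i : Fin n => (⟨dg 4 c i, (h2 i i.2).1⟩ : Fin n) := fun i j e =>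
    Fin.ext (by rw [← (h2 i i.2).2, ← (h2 j j.2).2, Fin.mk.inj e])
  have : ∃ g : Perm (Fin n), cd g = c := ⟨Equiv.ofBijective _ hi.bijective_of_finite,
    (pk_congr fun i hi => by simp [hi]).trans (Nat.eq_of_beq_eq_true h.1).symm⟩
  rw [tp, dif_pos this]; exact this.choose_spec

/-! formal sums -/
variable {V : Type*} [AddCommGroup V]

def Rp (W M T : ℕ) (Ψ : ℕ → V) (x : ℕ) (w : V) : Prop :=
  x < 2 ^ (W * (M + 1)) → ∃ a : ℕ → ℕ, x = ∑ h ∈ range M, a h * 2 ^ (W * h) +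
    (∑ h ∈ range M, a h) * 2 ^ (W * M) ∧ w = ∑ h ∈ range M, a h • Ψ (dg 40 T h)

def pt (W M T : ℕ) (ix : ℕ → ℕ) (c s : ℕ) : ℕ := frc (ix c) fun h =>
  bif Nat.blt h M && Nat.beq (dg 40 T h) c then
    Nat.add (Nat.shiftLeft s (Nat.mul W h)) (Nat.shiftLeft s (Nat.mul W M))
  else Nat.shiftLeft 1 (Nat.mul W (Nat.succ M))

variable {W M T : ℕ} {Ψ : ℕ → V}

theorem Rp.zero : Rp W M T Ψ 0 0 := fun _ => ⟨0, by simp, by simp⟩

theorem Rp.add {x y : ℕ} {v w : V} (h : Rp W M T Ψ x v) (k : Rp W M T Ψ y w) :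
    Rp W M T Ψ (x + y) (v + w) := fun e => by
  obtain ⟨a, h1, h2⟩ := h (by omega)
  obtain ⟨b, k1, k2⟩ := k (by omega)
  refine ⟨a + b, ?_, ?_⟩
  · simp only [Pi.add_apply, add_mul, sum_add_distrib]; omega
  · simp only [Pi.add_apply, add_smul, sum_add_distrib, h2, k2]

theorem Rp.pt (ix : ℕ → ℕ) (c s : ℕ) : Rp W M T Ψ (pt W M T ix c s) (s • Ψ c) := fun e => by
  rw [Pc.pt, frc_eq] at e ⊢
  cases hb : Nat.blt (ix c) M && Nat.beq (dg 40 T (ix c)) c
  · simp [hb, Nat.shiftLeft_eq] at e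
  · simp only [Bool.and_eq_true, Nat.blt_eq, Nat.beq_eq] at hb
    refine ⟨fun h => if h = ix c then s else 0, ?_, ?_⟩ <;>
      simp [hb, Nat.shiftLeft_eq]

def all2 (f : ℕ → Bool) (d : ℕ) : ℕ → Bool :=
  Nat.rec f (fun d r lo => r lo && r (Nat.add lo (Nat.shiftLeft 1 d))) d
theorem all2_imp {f : ℕ → Bool} {d lo : ℕ} (h : all2 f d lo = true) : ∀ i < 2 ^ d, f (lo + i) = true := by
  induction d generalizing lo with
  | zero => intro i hi; obtain rfl : i = 0 := by simpa using hi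
            exact h
  | succ d ih =>
    have h : (all2 f d lo && all2 f d (lo + 1 <<< d)) = true := h
    rw [Bool.and_eq_true, Nat.shiftLeft_eq, one_mul] at h
    intro i hi
    by_cases e : i < 2 ^ d
    · exact ih h.1 i e
    · have := ih h.2 (i - 2 ^ d) (by rw [pow_succ] at hi; omega)
      rwa [show lo + 2 ^ d + (i - 2 ^ d) = lo + i by omega] at this

def fz (p W M x : ℕ) : ℕ := frc x fun x => bif Nat.blt x (Nat.shiftLeft 1 (Nat.mul W (Nat.succ M))) &&
  all2 (fun h => Nat.ble M h || Nat.beq (Nat.mod (dg W x h) p) 0) (Nat.succ (Nat.log2 M)) 0 then 0 else 1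

theorem Rp.fz {p x : ℕ} {w : V} (h : Rp W M T Ψ x w) (hp : ∀ v : V, p • v = 0)
    (e : fz p W M x = 0) : w = 0 := by
  rw [Pc.fz, frc_eq] at e
  cases hb : Nat.blt x (Nat.shiftLeft 1 (Nat.mul W (Nat.succ M))) &&
    all2 (fun h => Nat.ble M h || Nat.beq (Nat.mod (dg W x h) p) 0) (Nat.succ (Nat.log2 M)) 0
  · rw [hb] at e; exact absurd e one_ne_zero
  rw [Bool.and_eq_true] at hb
  have h1 : x < 2 ^ (W * (M + 1)) := by simpa [Nat.shiftLeft_eq] using hb.1
  obtain ⟨a, h2, h3⟩ := h h1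
  have h4 : ∑ h ∈ range M, a h < 2 ^ W := by
    rw [Nat.mul_succ, pow_add, mul_comm] at h1
    exact lt_of_mul_lt_mul_right (lt_of_le_of_lt (by omega) h1) (Nat.zero_le (2 ^ (W * M)))
  have h5 : x = pk W (fun h => if h < M then a h else ∑ h ∈ range M, a h) (M + 1) := by
    rw [pk_succ, pk_congr (g := a) fun i hi => if_pos hi, pk_eq, if_neg (lt_irrefl M), h2]
  rw [h3]
  refine sum_eq_zero fun i hi => ?_
  have hi' := mem_range.1 hi
  have h6 := all2_imp hb.2 i (hi'.trans Nat.lt_log2_self)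
  rw [h5, zero_add, dg_pk _ (by omega)] at h6
  · simp only [hi', if_true, Bool.or_eq_true, Nat.ble_eq, Nat.beq_eq] at h6
    obtain ⟨k, hk⟩ := Nat.dvd_of_mod_eq_zero (h6.resolve_left (by omega))
    rw [hk, mul_smul, hp]
  · intro j _
    split_ifs with hj
    exacts [(single_le_sum (f := a) (fun _ _ => Nat.zero_le _) (mem_range.2 hj)).trans_lt h4, h4]

end Cfsg.Agent.AD.Pc
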