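import Mathlib

/-!
# Modules for symmetric groups: vectors with non-solvable stabilizer
-/

set_option autoImplicit false

namespace Cfsg.Agent.AD

universe u

/-- every nonzero finite module of exponent `p` for the symmetric group of degree `n` has a nonzero
vector whose stabilizer is not solvable -/
def Mod (p n : ℕ) : Prop := ∀ (V : Type u) [AddCommGroup V] [Finite V] [Nontrivial V]
  [DistribMulAction (Equiv.Perm (Fin n)) V], (∀ v : V, p • v = 0) →
  ∃ v : V, v ≠ 0 ∧ ¬ Group.IsSolvable (MulAction.stabilizer (Equiv.Perm (Fin n)) v)

end Cfsg.Agent.AD
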