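import Mathlib

/-! Eigenvectors for Young-type subgroups of `S₁₀` (characteristic 5) and fixed vectors of a Sylow
2-subgroup of `S₈` (characteristic 2). -/

namespace Cfsg.Agent.AD

open Equiv

section Gen
variable {G V : Type*} [Group G] [AddCommGroup V] [DistribMulAction G V]

theorem eigStep2 (hp : ∀ v : V, 2 • v = 0) {w : V} (hw : w ≠ 0) (s : G) (hs : s * s = 1) :
    ∃ w' : V, w' ≠ 0 ∧ s • w' = w' ∧
      ∀ t t' : G, t * s = s * t' → t • w = w → t' • w = w → t • w' = w' := by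
  by_cases h : w + s • w = 0
  · refine ⟨w, hw, ?_, fun t _ _ h1 _ => h1⟩
    have h2 := hp w
    rw [two_nsmul] at h2
    exact add_left_cancel (h.trans h2.symm)
  · refine ⟨w + s • w, h, ?_, fun t t' h0 h1 h2 => ?_⟩
    · rw [smul_add, smul_smul, hs, one_smul, add_comm]
    · rw [smul_add, smul_smul, h0, ← smul_smul, h1, h2]

theorem eigSplit {w : V} (hw : w ≠ 0) (s : G) (hs : s * s = 1) :
    ∃ (e : ℤ) (w' : V), (e = 1 ∨ e = -1) ∧ w' ≠ 0 ∧ s • w' = e • w' ∧
      ∀ (t t' : G) (d : ℤ), t * s = s * t' → t • w = d • w → t' • w = d • w →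
        t • w' = d • w' := by
  by_cases h : w + s • w = 0
  · refine ⟨-1, w, Or.inr rfl, hw, ?_, fun t _ _ _ h1 _ => h1⟩
    rw [neg_one_zsmul]
    exact eq_neg_of_add_eq_zero_right h
  · refine ⟨1, w + s • w, Or.inl rfl, h, ?_, fun t t' d h0 h1 h2 => ?_⟩
    · rw [smul_add, smul_smul, hs, one_smul, add_comm, one_smul]
    · rw [smul_add, smul_smul, h0, ← smul_smul, h1, h2, smul_add, smul_comm s d w]

theorem eigFixV (h2 : ∀ v : V, v + v = 0 → v = 0) (U : AddSubgroup V) (z z' z'' g g' : G)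
    (hz : ∀ u ∈ U, z • u ∈ U) (hg : ∀ u ∈ U, g • u ∈ U) (hg' : ∀ u ∈ U, g' • u ∈ U)
    (r1 : z * z = 1) (r2 : z * z' = z'') (r3 : g * z' = z * g) (r4 : g' * z'' = z * g')
    {w : V} (hwU : w ∈ U) (hw : w ≠ 0) : ∃ u ∈ U, u ≠ 0 ∧ z • u = u := by
  by_contra hc
  push Not at hc
  have k : ∀ u ∈ U, z • u = -u := by
    intro u hu
    by_contra hn
    refine hc (u + z • u) (U.add_mem hu (hz u hu)) (fun h0 => hn (eq_neg_of_add_eq_zero_right h0)) ?_
    rw [smul_add, smul_smul, r1, one_smul, add_comm]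
  have k1 : z' • w = -w := by
    apply smul_left_cancel g
    rw [smul_smul, r3, ← smul_smul, k _ (hg w hwU), smul_neg]
  have k2 : z'' • w = -w := by
    apply smul_left_cancel g'
    rw [smul_smul, r4, ← smul_smul, k _ (hg' w hwU), smul_neg]
  rw [← r2, ← smul_smul, k1, smul_neg, k w hwU, neg_neg] at k2
  exact hw (h2 w (add_eq_zero_iff_eq_neg.2 k2))

theorem eigFix3 (h2 : ∀ v : V, v + v = 0 → v = 0) (U : AddSubgroup V) (r a b c a1 a2 g g' : G)
    (hr : ∀ u ∈ U, r • u ∈ U) (ha : ∀ u ∈ U, a • u ∈ U) (hb : ∀ u ∈ U, b • u ∈ U)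
    (hc : ∀ u ∈ U, c • u ∈ U) (hg : ∀ u ∈ U, g • u ∈ U) (hg' : ∀ u ∈ U, g' • u ∈ U)
    (r0 : r * (r * r) = 1) (r1 : b * r = r * a) (r2 : c * r = r * b) (r3 : a * r = r * c)
    (aa : a * a = 1) (bb : b * b = 1) (ab : a * b = c) (ba : b * a = c)
    (r4 : g * a1 = a * g) (r5 : g' * a2 = a * g') (r6 : a1 * a2 = r)
    {w : V} (hwU : w ∈ U) (hw : w ≠ 0) : ∃ u ∈ U, u ≠ 0 ∧ r • u = u := by
  by_contra hn
  push Not at hn
  have ac : a * c = b := by rw [← ab, ← mul_assoc, aa, one_mul]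
  have ca : c * a = b := by rw [← ba, mul_assoc, aa, mul_one]
  have bc : b * c = a := by rw [← ba, ← mul_assoc, bb, one_mul]
  have cb : c * b = a := by rw [← ab, mul_assoc, bb, mul_one]
  have cc : c * c = 1 := by
    nth_rewrite 1 [← ab]
    rw [mul_assoc, bc, aa]
  have k : ∀ u ∈ U, u + r • u + r • r • u = 0 := by
    intro u hu
    by_contra h0
    refine hn _ (U.add_mem (U.add_mem hu (hr u hu)) (hr _ (hr u hu))) h0 ?_
    have r3u : r • r • r • u = u := by simp only [smul_smul, r0, one_smul]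
    rw [smul_add, smul_add, r3u]
    abel
  have kx : ∀ x ∈ U, a • x = -x → b • x = x → c • x = -x → x = 0 := by
    intro x hx xa xb xc
    have e1 := k x hx
    have e2 := congrArg (b • ·) e1
    simp only [smul_add, smul_zero] at e2
    have f1 : b • r • x = -(r • x) := by rw [smul_smul, r1, ← smul_smul, xa, smul_neg]
    have f2 : a • r • x = -(r • x) := by rw [smul_smul, r3, ← smul_smul, xc, smul_neg]
    have f3 : b • r • r • x = -(r • r • x) := by
      rw [smul_smul b r, r1, ← smul_smul, f2, smul_neg]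
    rw [xb, f1, f3] at e2
    apply h2
    have : x + x = (x + r • x + r • r • x) + (x + -(r • x) + -(r • r • x)) := by abel
    rw [this, e1, e2, add_zero]
  have ky : ∀ x ∈ U, a • x = -x → b • x = -x → c • x = x → x = 0 := by
    intro x hx xa xb xc
    have e1 := k x hx
    have e2 := congrArg (c • ·) e1
    simp only [smul_add, smul_zero] at e2
    have f1 : c • r • x = -(r • x) := by rw [smul_smul, r2, ← smul_smul, xb, smul_neg]
    have f2 : b • r • x = -(r • x) := by rw [smul_smul, r1, ← smul_smul, xa, smul_neg]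
    have f3 : c • r • r • x = -(r • r • x) := by
      rw [smul_smul c r, r2, ← smul_smul, f2, smul_neg]
    rw [xc, f1, f3] at e2
    apply h2
    have : x + x = (x + r • x + r • r • x) + (x + -(r • x) + -(r • r • x)) := by abel
    rw [this, e1, e2, add_zero]
  have ka : ∀ u ∈ U, a • u = u := by
    intro u hu
    have e1 : u + b • u - a • u - c • u = 0 := by
      apply kx _ (U.sub_mem (U.sub_mem (U.add_mem hu (hb u hu)) (ha u hu)) (hc u hu)) <;>
        simp only [smul_sub, smul_add, smul_smul, aa, bb, cc, ab, ba, ac, ca, bc, cb, one_smul] <;>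
        abel
    have e2 : u + c • u - a • u - b • u = 0 := by
      apply ky _ (U.sub_mem (U.sub_mem (U.add_mem hu (hc u hu)) (ha u hu)) (hb u hu)) <;>
        simp only [smul_sub, smul_add, smul_smul, aa, bb, cc, ab, ba, ac, ca, bc, cb, one_smul] <;>
        abel
    have e3 : u - a • u = 0 := by
      apply h2
      have : u - a • u + (u - a • u) =
          (u + b • u - a • u - c • u) + (u + c • u - a • u - b • u) := by abel
      rw [this, e1, e2, add_zero]
    exact (sub_eq_zero.1 e3).symm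
  have k1 : a1 • w = w := by
    apply smul_left_cancel g
    rw [smul_smul, r4, ← smul_smul, ka _ (hg w hwU)]
  have k2 : a2 • w = w := by
    apply smul_left_cancel g'
    rw [smul_smul, r5, ← smul_smul, ka _ (hg' w hwU)]
  exact hn w hwU hw (by rw [← r6, ← smul_smul, k2, k1])

/-- vectors fixed by two given elements -/
def eigFx (V : Type*) [AddCommGroup V] [DistribMulAction G V] (s t : G) : AddSubgroup V where
  carrier := {v | s • v = v ∧ t • v = v}
  add_mem' := fun h1 h2 => ⟨by rw [smul_add, h1.1, h2.1], by rw [smul_add, h1.2, h2.2]⟩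
  zero_mem' := ⟨smul_zero _, smul_zero _⟩
  neg_mem' := fun h => ⟨by rw [smul_neg, h.1], by rw [smul_neg, h.2]⟩

theorem eigFx_inv {s t x : G} (h1 : s * x = x * s) (h2 : t * x = x * t) :
    ∀ u ∈ eigFx V s t, x • u ∈ eigFx V s t := fun u hu =>
  ⟨by rw [smul_smul, h1, ← smul_smul, hu.1], by rw [smul_smul, h2, ← smul_smul, hu.2]⟩

/-- signed symmetriser of a group of order two -/
def eigE2 (V : Type*) [AddCommGroup V] [DistribMulAction G V] (e : ℤ) (s : G) : V →+ V :=
  AddMonoidHom.id V + e • DistribSMul.toAddMonoidHom V s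

/-- signed symmetriser of a symmetric group of degree three -/
def eigE3 (V : Type*) [AddCommGroup V] [DistribMulAction G V] (e : ℤ) (s t : G) : V →+ V :=
  AddMonoidHom.id V + e • DistribSMul.toAddMonoidHom V s + e • DistribSMul.toAddMonoidHom V t +
    DistribSMul.toAddMonoidHom V (s * t) + DistribSMul.toAddMonoidHom V (t * s) +
    e • DistribSMul.toAddMonoidHom V (s * t * s)

theorem eigE2_apply (e : ℤ) (s : G) (v : V) : eigE2 V e s v = v + e • s • v := rfl

theorem eigE3_apply (e : ℤ) (s t : G) (v : V) : eigE3 V e s t v =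
    v + e • s • v + e • t • v + (s * t) • v + (t * s) • v + e • (s * t * s) • v := rfl

theorem eigE2_comm (e : ℤ) {s x : G} (h : s * x = x * s) (v : V) :
    eigE2 V e s (x • v) = x • eigE2 V e s v := by
  rw [eigE2_apply, eigE2_apply, smul_add, smul_smul s, h, ← smul_smul, smul_comm x e]

theorem eigE3_comm (e : ℤ) {s t x : G} (h : s * x = x * s) (h' : t * x = x * t) (v : V) :
    eigE3 V e s t (x • v) = x • eigE3 V e s t v := by
  have k : ∀ u : V, s • x • u = x • s • u := fun u => by rw [smul_smul, h, ← smul_smul]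
  have k' : ∀ u : V, t • x • u = x • t • u := fun u => by rw [smul_smul, h', ← smul_smul]
  simp only [eigE3_apply, mul_smul, k, k', smul_add, smul_comm x e]

theorem eigE2_s {e : ℤ} (he : e = 1 ∨ e = -1) {s : G} (hs : s * s = 1) (v : V) :
    eigE2 V e s (s • v) = e • eigE2 V e s v := by
  rw [eigE2_apply, eigE2_apply, smul_smul s, hs, one_smul]
  rcases he with rfl | rfl <;> simp only [one_zsmul, neg_one_zsmul, neg_add, neg_neg] <;> abel

theorem eigE3_s {e : ℤ} (he : e = 1 ∨ e = -1) {s t : G} (hs : s * s = 1) (v : V) :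
    eigE3 V e s t (s • v) = e • eigE3 V e s t v := by
  have k : s • s • v = v := by rw [smul_smul, hs, one_smul]
  simp only [eigE3_apply, mul_smul, k]
  rcases he with rfl | rfl <;> simp only [one_zsmul, neg_one_zsmul, neg_add, neg_neg] <;> abel

theorem eigE3_t {e : ℤ} (he : e = 1 ∨ e = -1) {s t : G} (hs : s * s = 1) (ht : t * t = 1)
    (hb : t * (s * t) = s * (t * s)) (v : V) :
    eigE3 V e s t (t • v) = e • eigE3 V e s t v := by
  have k : t • t • v = v := by rw [smul_smul, ht, one_smul]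
  have k0 : ∀ u : V, s • s • u = u := fun u => by rw [smul_smul, hs, one_smul]
  have k1 : t • s • t • v = s • t • s • v := by simp only [smul_smul, hb]
  simp only [eigE3_apply, mul_smul, k, k1, k0]
  rcases he with rfl | rfl <;> simp only [one_zsmul, neg_one_zsmul, neg_add, neg_neg] <;> abel

theorem eigE2_w {e : ℤ} (he : e = 1 ∨ e = -1) {s : G} {w : V} (h : s • w = e • w) :
    eigE2 V e s w = (2 : ℤ) • w := by
  rw [eigE2_apply, h]
  rcases he with rfl | rfl <;> module

theorem eigE3_w {e : ℤ} (he : e = 1 ∨ e = -1) {s t : G} {w : V} (h : s • w = e • w)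
    (h' : t • w = e • w) : eigE3 V e s t w = (6 : ℤ) • w := by
  simp only [eigE3_apply, mul_smul, h, h', smul_comm s e, smul_comm t e]
  rcases he with rfl | rfl <;> module

theorem eigNat (hp : ∀ v : V, 5 • v = 0) {e : ℤ} (he : e = 1 ∨ e = -1) :
    ∃ a : ℕ, (a = 1 ∨ a = 4) ∧ ∀ v : V, e • v = a • v := by
  rcases he with rfl | rfl
  · exact ⟨1, Or.inl rfl, fun v => by rw [one_zsmul, one_nsmul]⟩
  · refine ⟨4, Or.inr rfl, fun v => ?_⟩
    have : 4 • v = (-1 : ℤ) • v + 5 • v := by module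
    rw [this, hp, add_zero]

end Gen

theorem fix2 {V : Type*} [AddCommGroup V] [Finite V] [Nontrivial V]
    [DistribMulAction (Perm (Fin 9)) V] (hp : ∀ v : V, 2 • v = 0) :
    ∃ w : V, w ≠ 0 ∧ ∀ s ∈ [(swap 0 1 : Perm (Fin 9)), swap 2 3, swap 4 5, swap 6 7,
      swap 0 2 * swap 1 3, swap 4 6 * swap 5 7, swap 0 4 * swap 1 5 * swap 2 6 * swap 3 7],
      s • w = w := by
  obtain ⟨w0, h0⟩ := exists_ne (0 : V)
  obtain ⟨w1, h1, a1, -⟩ := eigStep2 hp h0 (swap 0 1 : Perm (Fin 9)) (by decide)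
  obtain ⟨w2, h2, b2, k⟩ := eigStep2 hp h1 (swap 2 3 : Perm (Fin 9)) (by decide)
  have a2 := k _ _ (by decide) a1 a1
  clear k
  obtain ⟨w3, h3, c3, k⟩ := eigStep2 hp h2 (swap 4 5 : Perm (Fin 9)) (by decide)
  have a3 := k _ _ (by decide) a2 a2
  have b3 := k _ _ (by decide) b2 b2
  clear k
  obtain ⟨w4, h4, d4, k⟩ := eigStep2 hp h3 (swap 6 7 : Perm (Fin 9)) (by decide)
  have a4 := k _ _ (by decide) a3 a3
  have b4 := k _ _ (by decide) b3 b3
  have c4 := k _ _ (by decide) c3 c3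
  clear k
  obtain ⟨w5, h5, e5, k⟩ := eigStep2 hp h4 (swap 0 2 * swap 1 3 : Perm (Fin 9)) (by decide)
  have a5 := k _ _ (by decide) a4 b4
  have b5 := k _ _ (by decide) b4 a4
  have c5 := k _ _ (by decide) c4 c4
  have d5 := k _ _ (by decide) d4 d4
  clear k
  obtain ⟨w6, h6, f6, k⟩ := eigStep2 hp h5 (swap 4 6 * swap 5 7 : Perm (Fin 9)) (by decide)
  have a6 := k _ _ (by decide) a5 a5
  have b6 := k _ _ (by decide) b5 b5
  have c6 := k _ _ (by decide) c5 d5
  have d6 := k _ _ (by decide) d5 c5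
  have e6 := k _ _ (by decide) e5 e5
  clear k
  obtain ⟨w7, h7, g7, k⟩ := eigStep2 hp h6
    (swap 0 4 * swap 1 5 * swap 2 6 * swap 3 7 : Perm (Fin 9)) (by decide)
  have a7 := k _ _ (by decide) a6 c6
  have b7 := k _ _ (by decide) b6 d6
  have c7 := k _ _ (by decide) c6 a6
  have d7 := k _ _ (by decide) d6 b6
  have e7 := k _ _ (by decide) e6 f6
  have f7 := k _ _ (by decide) f6 e6
  refine ⟨w7, h7, ?_⟩
  simp only [List.mem_cons, List.not_mem_nil, or_false]
  rintro s (rfl | rfl | rfl | rfl | rfl | rfl | rfl) <;> assumption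

theorem eig5_w {V : Type*} [AddCommGroup V] [Nontrivial V] [DistribMulAction (Perm (Fin 10)) V]
    (h2 : ∀ v : V, v + v = 0 → v = 0) :
    ∃ (a b c : ℤ) (w : V), (a = 1 ∨ a = -1) ∧ (b = 1 ∨ b = -1) ∧ (c = 1 ∨ c = -1) ∧ w ≠ 0 ∧
      (swap 0 1 : Perm (Fin 10)) • w = a • w ∧ (swap 1 2 : Perm (Fin 10)) • w = a • w ∧
      (swap 3 4 : Perm (Fin 10)) • w = b • w ∧ (swap 4 5 : Perm (Fin 10)) • w = b • w ∧
      (swap 6 7 : Perm (Fin 10)) • w = c • w ∧ (swap 8 9 : Perm (Fin 10)) • w = c • w := by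
  obtain ⟨w0, h0⟩ := exists_ne (0 : V)
  obtain ⟨w1, -, h1, a1⟩ := eigFix3 h2 ⊤ (swap 0 1 * swap 1 2 : Perm (Fin 10))
    (swap 0 1 * swap 2 3) (swap 1 2 * swap 0 3) (swap 0 2 * swap 1 3) (swap 0 1 * swap 3 4)
    (swap 1 2 * swap 3 4) (swap 2 4) (swap 0 2 * swap 0 4)
    (fun _ _ => trivial) (fun _ _ => trivial) (fun _ _ => trivial) (fun _ _ => trivial)
    (fun _ _ => trivial) (fun _ _ => trivial) (by decide) (by decide) (by decide) (by decide)
    (by decide) (by decide) (by decide) (by decide) (by decide) (by decide) (by decide)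
    (w := w0) trivial h0
  obtain ⟨w2, ⟨a2, -⟩, h2', b2⟩ := eigFix3 h2
    (eigFx V (swap 0 1 * swap 1 2 : Perm (Fin 10)) (swap 0 1 * swap 1 2))
    (swap 3 4 * swap 4 5 : Perm (Fin 10))
    (swap 3 4 * swap 5 6) (swap 4 5 * swap 3 6) (swap 3 5 * swap 4 6) (swap 3 4 * swap 6 7)
    (swap 4 5 * swap 6 7) (swap 5 7) (swap 3 5 * swap 3 7)
    (eigFx_inv (by decide) (by decide)) (eigFx_inv (by decide) (by decide))
    (eigFx_inv (by decide) (by decide)) (eigFx_inv (by decide) (by decide))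
    (eigFx_inv (by decide) (by decide)) (eigFx_inv (by decide) (by decide))
    (by decide) (by decide) (by decide) (by decide)
    (by decide) (by decide) (by decide) (by decide) (by decide) (by decide) (by decide)
    (w := w1) ⟨a1, a1⟩ h1
  obtain ⟨w3, ⟨a3, b3⟩, h3, c3⟩ := eigFixV h2
    (eigFx V (swap 0 1 * swap 1 2 : Perm (Fin 10)) (swap 3 4 * swap 4 5))
    (swap 6 7 * swap 8 9 : Perm (Fin 10)) (swap 6 8 * swap 7 9) (swap 6 9 * swap 7 8)
    (swap 7 8) (swap 7 9) (eigFx_inv (by decide) (by decide)) (eigFx_inv (by decide) (by decide))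
    (eigFx_inv (by decide) (by decide)) (by decide) (by decide) (by decide) (by decide)
    (w := w2) ⟨a2, b2⟩ h2'
  have a3' : (swap 1 2 * swap 0 1 : Perm (Fin 10)) • w3 = (1 : ℤ) • w3 := by
    rw [show (swap 1 2 * swap 0 1 : Perm (Fin 10)) =
      (swap 0 1 * swap 1 2) * (swap 0 1 * swap 1 2) by decide, mul_smul, a3, a3, one_zsmul]
  have b3' : (swap 4 5 * swap 3 4 : Perm (Fin 10)) • w3 = (1 : ℤ) • w3 := by
    rw [show (swap 4 5 * swap 3 4 : Perm (Fin 10)) =
      (swap 3 4 * swap 4 5) * (swap 3 4 * swap 4 5) by decide, mul_smul, b3, b3, one_zsmul]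
  replace a3 := a3.trans (one_zsmul w3).symm
  replace b3 := b3.trans (one_zsmul w3).symm
  replace c3 := c3.trans (one_zsmul w3).symm
  obtain ⟨a, w4, ha, h4, s4, k⟩ := eigSplit h3 (swap 0 1 : Perm (Fin 10)) (by decide)
  have a4 := k _ _ _ (by decide) a3 a3'
  have b4 := k _ _ _ (by decide) b3 b3
  have b4' := k _ _ _ (by decide) b3' b3'
  have c4 := k _ _ _ (by decide) c3 c3
  clear k
  obtain ⟨b, w5, hb, h5, t5, k⟩ := eigSplit h4 (swap 3 4 : Perm (Fin 10)) (by decide)
  have a5 := k _ _ _ (by decide) a4 a4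
  have s5 := k _ _ _ (by decide) s4 s4
  have b5 := k _ _ _ (by decide) b4 b4'
  have c5 := k _ _ _ (by decide) c4 c4
  clear k
  obtain ⟨c, w, hc, h6, u6, k⟩ := eigSplit h5 (swap 6 7 : Perm (Fin 10)) (by decide)
  have a6 := k _ _ _ (by decide) a5 a5
  have s6 := k _ _ _ (by decide) s5 s5
  have b6 := k _ _ _ (by decide) b5 b5
  have t6 := k _ _ _ (by decide) t5 t5
  have c6 := k _ _ _ (by decide) c5 c5
  rw [one_zsmul] at a6 b6 c6
  refine ⟨a, b, c, w, ha, hb, hc, h6, s6, ?_, t6, ?_, u6, ?_⟩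
  · rw [show (swap 1 2 : Perm (Fin 10)) = swap 0 1 * (swap 0 1 * swap 1 2) by decide, mul_smul,
      a6, s6]
  · rw [show (swap 4 5 : Perm (Fin 10)) = swap 3 4 * (swap 3 4 * swap 4 5) by decide, mul_smul,
      b6, t6]
  · rw [show (swap 8 9 : Perm (Fin 10)) = swap 6 7 * (swap 6 7 * swap 8 9) by decide, mul_smul,
      c6, u6]

theorem eig5 {V : Type*} [AddCommGroup V] [Nontrivial V] [DistribMulAction (Perm (Fin 10)) V]
    (hp : ∀ v : V, 5 • v = 0) :
    ∃ (a b c : ℕ) (w : V) (E : V →+ V), (a = 1 ∨ a = 4) ∧ (b = 1 ∨ b = 4) ∧ (c = 1 ∨ c = 4) ∧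
      E w ≠ 0 ∧ ∀ x ∈ [((swap 0 1 : Perm (Fin 10)), a), (swap 1 2, a), (swap 3 4, b),
        (swap 4 5, b), (swap 6 7, c), (swap 8 9, c)],
        x.1 • w = x.2 • w ∧ ∀ v, E (x.1 • v) = x.2 • E v := by
  have h2 : ∀ v : V, v + v = 0 → v = 0 := fun v h => by
    have : v = 5 • v - ((v + v) + (v + v)) := by module
    rw [this, hp, h, add_zero, sub_zero]
  obtain ⟨a, b, c, w, ha, hb, hc, hw, s1, s2, s3, s4, s5, s6⟩ := eig5_w h2
  obtain ⟨a', ha', ea⟩ := eigNat hp ha
  obtain ⟨b', hb', eb⟩ := eigNat hp hb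
  obtain ⟨c', hc', ec⟩ := eigNat hp hc
  refine ⟨a', b', c', w, (eigE3 V a (swap 0 1 : Perm (Fin 10)) (swap 1 2)).comp
    ((eigE3 V b (swap 3 4 : Perm (Fin 10)) (swap 4 5)).comp
      ((eigE2 V c (swap 6 7 : Perm (Fin 10))).comp (eigE2 V c (swap 8 9 : Perm (Fin 10))))),
    ha', hb', hc', ?_, ?_⟩
  · simp only [AddMonoidHom.comp_apply, eigE2_w hc s6, eigE2_w hc s5, eigE3_w hb s3 s4,
      eigE3_w ha s1 s2, map_zsmul]
    intro h0
    apply hw
    have : w = 29 • (5 • w) - (2 : ℤ) • (2 : ℤ) • (6 : ℤ) • (6 : ℤ) • w := by module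
    rw [this, hp, h0, smul_zero, sub_zero]
  · simp only [List.mem_cons, List.not_mem_nil, or_false, AddMonoidHom.comp_apply]
    rintro x (rfl | rfl | rfl | rfl | rfl | rfl) <;> dsimp only
    · refine ⟨s1.trans (ea w), fun v => ?_⟩
      rw [eigE2_comm c (by decide), eigE2_comm c (by decide),
        eigE3_comm b (by decide) (by decide), eigE3_s ha (by decide), ea]
    · refine ⟨s2.trans (ea w), fun v => ?_⟩
      rw [eigE2_comm c (by decide), eigE2_comm c (by decide),
        eigE3_comm b (by decide) (by decide), eigE3_t ha (by decide) (by decide) (by decide), ea]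
    · refine ⟨s3.trans (eb w), fun v => ?_⟩
      rw [eigE2_comm c (by decide), eigE2_comm c (by decide), eigE3_s hb (by decide), map_zsmul,
        eb]
    · refine ⟨s4.trans (eb w), fun v => ?_⟩
      rw [eigE2_comm c (by decide), eigE2_comm c (by decide),
        eigE3_t hb (by decide) (by decide) (by decide), map_zsmul, eb]
    · refine ⟨s5.trans (ec w), fun v => ?_⟩
      rw [eigE2_comm c (by decide), eigE2_s hc (by decide), map_zsmul, map_zsmul, ec]
    · refine ⟨s6.trans (ec w), fun v => ?_⟩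
      rw [eigE2_s hc (by decide), map_zsmul, map_zsmul, map_zsmul, ec]

end Cfsg.Agent.AD
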