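import Cfsg.Agent.Lib.AD.Five0
import Cfsg.Agent.Lib.AD.Five1
import Cfsg.Agent.Lib.AD.Five2
import Cfsg.Agent.Lib.AD.Five3
import Cfsg.Agent.Lib.AD.Five4
import Cfsg.Agent.Lib.AD.Five5
import Cfsg.Agent.Lib.AD.Five6
import Cfsg.Agent.Lib.AD.Five7
import Cfsg.Agent.Lib.AD.Eig
import Cfsg.Agent.Lib.AD.Def

/-! # `S₁₀` in characteristic 5 -/

namespace Cfsg.Agent.AD
open Equiv Pc

universe u

theorem Pc.Five.good {V : Type u} [AddCommGroup V] (hp : ∀ v : V, 5 • v = 0) {a b c : ℕ}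
    {Φ : Perm (Fin 10) → V} (h : ∀ x ∈ [((swap 0 1 : Perm (Fin 10)), a), (swap 1 2, a), (swap 3 4, b),
      (swap 4 5, b), (swap 6 7, c), (swap 8 9, c)], ∀ g, Φ g = x.2 • Φ (g * x.1))
    (R : ℕ → V → Prop) (k) (hk : Good R Φ k) : Good R Φ (Five.nR a b c k) := by
  simp only [List.forall_mem_cons] at h
  obtain ⟨h1, h2, h3, h4, h5, h6, -⟩ := h
  have hn : 10 ≤ 16 := by norm_num
  exact (((((((hk.stp hn hp 8 9 _ (by decide +kernel) h6).stp hn hp 6 7 _ (by decide +kernel) h5).stp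
      hn hp 3 4 _ (by decide +kernel) h3).stp hn hp 4 5 _ (by decide +kernel) h4).stp
      hn hp 3 4 _ (by decide +kernel) h3).stp hn hp 0 1 _ (by decide +kernel) h1).stp
      hn hp 1 2 _ (by decide +kernel) h2).stp hn hp 0 1 _ (by decide +kernel) h1

theorem mod5 : Mod.{u} 5 10 := by
  intro V _ _ _ _ hp
  by_contra h
  obtain ⟨a, b, c, w, E, ha, hb, hc, hw, hs⟩ := eig5 hp
  have hn : 10 ≤ 16 := by norm_num
  have hi : ∀ x ∈ [((swap 0 1 : Perm (Fin 10)), a), (swap 1 2, a), (swap 3 4, b),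
      (swap 4 5, b), (swap 6 7, c), (swap 8 9, c)], x.1 * x.1 = 1 := by simp
  have e1 : ∀ x ∈ [((swap 0 1 : Perm (Fin 10)), a), (swap 1 2, a), (swap 3 4, b),
      (swap 4 5, b), (swap 6 7, c), (swap 8 9, c)], ∀ g : Perm (Fin 10), g • w = x.2 • ((g * x.1) • w) :=
    fun x hx g => by
      rw [smul_comm x.2, ← (hs x hx).1, ← mul_smul, mul_assoc, hi x hx, mul_one]
  obtain ⟨C, h1, h2⟩ : Five.Cert a b c := by
    rcases ha with rfl | rfl <;> rcases hb with rfl | rfl <;> rcases hc with rfl | rfl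
    exacts [Five.C0.cert, Five.C4.cert, Five.C2.cert, Five.C6.cert, Five.C1.cert, Five.C5.cert,
      Five.C3.cert, Five.C7.cert]
  refine hw (Pc.main hn hp (by norm_num) (by decide +kernel) E (Five.good hp e1)
    (Φ := fun g => E (g⁻¹ • w)) (fun R k hk => Five.good hp (fun x hx g => ?_) R _
      (Good.ivs hn (Five.good hp (fun x hx g => ?_) R k hk))) (hX_of hn h Five.hY) h1 h2)
  · rw [e1 x hx g, map_nsmul]
  · rw [mul_inv_rev, inv_eq_of_mul_eq_one_right (hi x hx), ← (hs x hx).2, ← mul_smul, ← mul_assoc, hi x hx,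
      one_mul]

end Cfsg.Agent.AD
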