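import Cfsg.Agent.Lib.AD.Def
import Cfsg.Agent.Lib.Coprime.Action
import Cfsg.Agent.Lib.Core.Frattini
import Cfsg.Agent.Lib.Core.Fitting
import Cfsg.Agent.Lib.PGrp.Basic
import Cfsg.Agent.Lib.Cls.Basic
import Cfsg.Prelude.Def_LocalEven

/-!
# Solvable centralizers of `p`-elements bound the alternating sections
-/

set_option autoImplicit false

namespace Cfsg.Agent.AD

open Subgroup Equiv
open scoped commutatorElement

universe u

namespace Alt

/-- the centralizers of the noncentral `p`-elements are solvable -/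
def Hy (p : ℕ) (G : Type u) [Group G] : Prop := ∀ x : G, x ∉ center G →
  (∃ k : ℕ, orderOf x = p ^ k) → Group.IsSolvable (centralizer ({x} : Set G))

/-- `Mod` for an arbitrary group -/
def ModA (p : ℕ) (A : Type) [Group A] : Prop := ∀ (V : Type u) [AddCommGroup V] [Finite V]
  [Nontrivial V] [DistribMulAction A V], (∀ v : V, p • v = 0) →
  ∃ v : V, v ≠ 0 ∧ ¬ Group.IsSolvable (MulAction.stabilizer A v)

variable {p : ℕ} {G : Type u} [Group G]

theorem Hy.sub (h : Hy p G) (H : Subgroup G) : Hy p H := fun x hx hk => by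
  have := h x (fun hc => hx (mem_center_iff.2 fun g => Subtype.ext (mem_center_iff.1 hc g)))
    (by simpa using hk)
  refine Core.isSolvable_of_le (Core.isSolvable_subgroupOf this H) fun g hg => ?_
  rw [mem_subgroupOf, mem_centralizer_singleton_iff]
  exact congrArg Subtype.val (mem_centralizer_singleton_iff.1 hg)

theorem cent_zp (x : G) : centralizer (zpowers x : Set G) = centralizer {x} := by
  rw [zpowers_eq_closure, centralizer_closure]

theorem Hy.quo [Finite G] (h : Hy p G) (hp : p.Prime) (K : Subgroup G) [K.Normal]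
    (hK : p.Coprime (Nat.card K)) : Hy p (G ⧸ K) := fun y hy hk => by
  obtain ⟨x, rfl⟩ := QuotientGroup.mk'_surjective K y
  obtain ⟨u, -, e, k, hu⟩ := Cls.exists_p_lift hp (QuotientGroup.mk' K) x hk
  rw [← e] at hy ⊢
  have h1 := h u (fun hc => hy (mem_center_iff.2 fun g => by
    obtain ⟨g, rfl⟩ := QuotientGroup.mk'_surjective K g
    rw [← map_mul, ← map_mul, mem_center_iff.1 hc g])) ⟨k, hu⟩
  have h2 := Coprime.map_centralizer_eq (QuotientGroup.mk' K) (QuotientGroup.mk'_surjective K)
    (A := zpowers u) (by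
      rw [QuotientGroup.ker_mk', Nat.card_zpowers, hu]; exact hK.pow_left k)
    (Or.inl inferInstance)
  rw [MonoidHom.map_zpowers, cent_zp, cent_zp] at h2
  rw [← h2]
  exact Core.isSolvable_map h1 _

/-- a subgroup fixing `w` modulo the centre is solvable if `C(w)` is -/
theorem sol_of_comm {w : G} (hw : Group.IsSolvable (centralizer ({w} : Set G))) {E : Subgroup G}
    (h : ∀ e ∈ E, ⁅e, w⁆ ∈ center G) : Group.IsSolvable E := by
  let f : E →* center G :=
    { toFun := fun e => ⟨⁅(e : G), w⁆, h e e.2⟩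
      map_one' := Subtype.ext (by simp)
      map_mul' := fun a b => Subtype.ext (by
        have := mem_center_iff.1 (h b b.2) (a : G)
        change ⁅(a : G) * b, w⁆ = ⁅(a : G), w⁆ * ⁅(b : G), w⁆
        calc ⁅(a : G) * b, w⁆ = (a * ⁅(b : G), w⁆) * (a : G)⁻¹ * ⁅(a : G), w⁆ := by group
          _ = ⁅(b : G), w⁆ * ⁅(a : G), w⁆ := by rw [this]; group
          _ = _ := mem_center_iff.1 (h a a.2) _) }
  have := Core.isSolvable_subgroupOf hw E
  have : Group.IsSolvable (center G) := Group.isSolvable_of_comm fun a b =>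
    Subtype.ext (mem_center_iff.1 b.2 a)
  refine Group.isSolvable_of_ker_le_range ((centralizer {w}).subgroupOf E).subtype f fun e he => ?_
  rw [range_subtype, mem_subgroupOf, mem_centralizer_singleton_iff]
  exact commutatorElement_eq_one_iff_mul_comm.1 (congrArg Subtype.val he)

variable {A : Type} [Group A] [Finite G] [hp : Fact p.Prime] {φ : G →* A}

omit [Finite G] in
theorem ord_of_ker (hN : IsPGroup p φ.ker) {x : G} (hx : ∃ k, orderOf (φ x) = p ^ k) :
    ∃ k, orderOf x = p ^ k := by
  obtain ⟨k, hk⟩ := hx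
  obtain ⟨m, hm⟩ := hN ⟨x ^ p ^ k, by rw [MonoidHom.mem_ker, map_pow, ← hk, pow_orderOf_eq_one]⟩
  have : x ^ p ^ (k + m) = 1 := by rw [pow_add, pow_mul]; exact congrArg Subtype.val hm
  obtain ⟨j, -, hj⟩ := (Nat.dvd_prime_pow hp.out).1 (orderOf_dvd_of_pow_eq_one this)
  exact ⟨j, hj⟩

omit [Finite G] hp in
theorem not_mem_center (hφ : Function.Surjective φ) {x : G} (hx : φ x ∉ center A) :
    x ∉ center G := fun hc => hx (mem_center_iff.2 fun g => by
  obtain ⟨g, rfl⟩ := hφ g
  rw [← map_mul, ← map_mul, mem_center_iff.1 hc g])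

omit [Finite G] hp in
theorem sol_of_comap (hφ : Function.Surjective φ) {L : Subgroup A}
    (h : Group.IsSolvable (L.comap φ)) : Group.IsSolvable L := by
  rw [← map_comap_eq_self_of_surjective hφ L]
  exact Core.isSolvable_map h φ

/-- a noncentral normal `p`-subgroup gives a module all of whose stabilizers are solvable -/
theorem le_center (h : Hy p G) (hφ : Function.Surjective φ) (hN : IsPGroup p φ.ker)
    (hm : ModA.{u} p A) : φ.ker ≤ center G := by
  by_contra hne
  let π := QuotientGroup.mk' (center G)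
  let N := φ.ker.map π
  have hNn : N.Normal := Normal.map inferInstance π (QuotientGroup.mk'_surjective _)
  have hNp : IsPGroup p N := hN.map π
  have h0 : N ⊓ centralizer (N : Set (G ⧸ center G)) ≠ ⊥ :=
    PGrp.inf_centralizer_ne_bot hNp hNp le_normalizer fun e => hne (by
      rwa [Subgroup.map_eq_bot_iff, QuotientGroup.ker_mk'] at e)
  let V : Subgroup (G ⧸ center G) :=
    { carrier := {v | v ∈ N ⊓ centralizer (N : Set (G ⧸ center G)) ∧ v ^ p = 1}
      one_mem' := ⟨one_mem _, one_pow _⟩
      mul_mem' := fun {a b} ha hb => ⟨mul_mem ha.1 hb.1, by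
        rw [Commute.mul_pow (hb.1.2 a ha.1.1), ha.2, hb.2, one_mul]⟩
      inv_mem' := fun {a} ha => ⟨inv_mem ha.1, by rw [inv_pow, ha.2, inv_one]⟩ }
  have hVn : V.Normal := ⟨fun v hv g => ⟨Normal.conj_mem inferInstance v hv.1 g, by
    rw [conj_pow, hv.2, mul_one, mul_inv_cancel]⟩⟩
  have hV1 : Nontrivial V := by
    obtain ⟨⟨x, hx⟩, x1⟩ := (ne_bot_iff_exists_ne_one).1 h0
    obtain ⟨k, hk⟩ := IsPGroup.iff_orderOf.1 hNp ⟨x, hx.1⟩
    rw [← Subgroup.orderOf_coe] at hk
    change orderOf x = _ at hk
    obtain _ | k := k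
    · exact (x1 (Subtype.ext (orderOf_eq_one_iff.1 (by simpa using hk)))).elim
    · refine ⟨⟨x ^ p ^ k, pow_mem hx _, by rw [← pow_mul, ← pow_succ, ← hk, pow_orderOf_eq_one]⟩,
        1, fun e => ?_⟩
      have := orderOf_dvd_of_pow_eq_one (congrArg Subtype.val e)
      rw [hk, Nat.pow_dvd_pow_iff_le_right hp.out.one_lt] at this
      omega
  let ψ : G →* MulAut V := (MulAut.conjNormal (H := V)).comp π
  have hk : φ.ker ≤ ψ.ker := fun g hg => by
    ext v
    change ((MulAut.conjNormal (π g) v : V) : G ⧸ center G) = v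
    rw [MulAut.conjNormal_apply, v.2.1.2 (π g) (mem_map_of_mem π hg), mul_inv_cancel_right]
  let θ : A →* MulAut V := φ.liftOfSurjective hφ ⟨ψ, hk⟩
  have hθ : ∀ g, θ (φ g) = ψ g := fun g => φ.liftOfRightInverse_comp_apply _ _ ⟨ψ, hk⟩ g
  let _ : CommGroup V := { (inferInstance : Group V) with
    mul_comm := fun a b => Subtype.ext (b.2.1.2 a a.2.1.1) }
  let _ : DistribMulAction A (Additive V) :=
    { smul := fun a v => Additive.ofMul (θ a v.toMul)
      one_smul := fun v => by change Additive.ofMul (θ 1 v.toMul) = v; simp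
      mul_smul := fun a b v => by
        change Additive.ofMul (θ (a * b) v.toMul) =
          Additive.ofMul (θ a (Additive.ofMul (θ b v.toMul)).toMul)
        simp
      smul_zero := fun a => by change Additive.ofMul (θ a 1) = 0; simp
      smul_add := fun a v w => by
        change Additive.ofMul (θ a (v.toMul * w.toMul)) =
          Additive.ofMul (θ a v.toMul) + Additive.ofMul (θ a w.toMul)
        simp }
  obtain ⟨v, v0, hv⟩ := hm (Additive V) fun v => by
    change Additive.ofMul (v.toMul ^ p) = Additive.ofMul 1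
    exact congrArg _ (Subtype.ext v.toMul.2.2)
  obtain ⟨w, hw, e⟩ := v.toMul.2.1.1
  refine hv (sol_of_comap hφ (sol_of_comm (h w (fun hc => v0 ?_) ?_) fun g hg => ?_))
  · change Additive.ofMul v.toMul = Additive.ofMul 1
    exact congrArg _ (Subtype.ext (e.symm.trans ((QuotientGroup.eq_one_iff w).2 hc)))
  · exact ord_of_ker hN ⟨0, by rw [show φ w = 1 from hw]; simp⟩
  · have h1 : θ (φ g) v.toMul = v.toMul := congrArg Additive.toMul (show φ g • v = v from hg)
    rw [hθ] at h1
    have h2 : π g * π w * (π g)⁻¹ = π w := by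
      rw [e]; exact (MulAut.conjNormal_apply (π g) v.toMul).symm.trans (congrArg Subtype.val h1)
    rw [← QuotientGroup.eq_one_iff]
    change π _ = 1
    rw [map_commutatorElement, commutatorElement_def, h2, mul_inv_cancel]

theorem core_p [Finite A] {y : A} {L : Subgroup A} (hy : y ∉ center A) (hk : ∃ k, orderOf y = p ^ k)
    (hL : ¬ Group.IsSolvable L) (hc : ∀ a ∈ L, a * y = y * a)
    (hm : ModA.{u} p A ∨ p.Coprime (Nat.card L)) (h : Hy p G) (hφ : Function.Surjective φ)
    (hN : IsPGroup p φ.ker) : False := by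
  obtain ⟨x, rfl⟩ := hφ y
  rcases hm with hm | hm
  · refine hL (sol_of_comap hφ (sol_of_comm (h x (not_mem_center hφ hy) (ord_of_ker hN hk))
      fun g hg => le_center h hφ hN hm ?_))
    rw [MonoidHom.mem_ker, map_commutatorElement, commutatorElement_eq_one_iff_mul_comm]
    exact hc _ hg
  · obtain ⟨m, hm'⟩ := IsPGroup.iff_card.1 hN
    have hi : φ.ker.relIndex (L.comap φ) = Nat.card L := by
      rw [← MonoidHom.comap_bot, relIndex_comap, map_comap_eq_self_of_surjective hφ,
        relIndex_bot_left]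
    obtain ⟨H, h1, h2, -, h4⟩ := Coprime.sz_exists (ker_le_comap φ L) le_normalizer_of_normal
      (by rw [hi, hm']; exact hm.pow_left m)
    have := hN.isNilpotent
    obtain ⟨n, hn, h5⟩ := Coprime.exists_mul_mem_centralizer (A := H) (N := φ.ker)
      le_normalizer_of_normal (by rw [h4, hi, hm']; exact (hm.pow_left m).symm)
      (Or.inr inferInstance) (g := x) fun a ha => by
        rw [MonoidHom.mem_ker, map_mul, map_mul, map_mul, hc _ (h1 ha), map_inv, map_inv]; group
    have e : φ (x * n) = φ x := by rw [map_mul, show φ n = 1 from hn, mul_one]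
    have h6 := h (x * n) (not_mem_center hφ (e ▸ hy)) (ord_of_ker hN (e ▸ hk))
    have h7 : Group.IsSolvable H := Core.isSolvable_of_le h6 fun a ha =>
      mem_centralizer_singleton_iff.2 (h5 a ha)
    apply hL
    rw [← map_comap_eq_self_of_surjective hφ L, ← h2, Subgroup.map_sup,
      (Subgroup.map_eq_bot_iff _).2 le_rfl, bot_sup_eq]
    exact Core.isSolvable_map h7 φ

theorem core [Finite A] {y : A} {L : Subgroup A} (hy : y ∉ center A) (hk : ∃ k, orderOf y = p ^ k)
    (hL : ¬ Group.IsSolvable L) (hc : ∀ a ∈ L, a * y = y * a)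
    (hm : ModA.{u} p A ∨ p.Coprime (Nat.card L)) (G : Type u) [Group G] [Finite G] :
    Hy p G → ∀ φ : G →* A, ¬ Function.Surjective φ := by
  refine Core.induction_on_card
    (P := fun G _ _ => Hy p G → ∀ φ : G →* A, ¬ Function.Surjective φ) ?_ G
  intro G _ _ ih h φ hφ
  have hF : φ.ker ≤ frattini G := Core.le_frattini_iff_forall_sup.2 fun H hH => by
    by_contra hne
    refine ih H (Core.card_lt_of_ne_top hne) (h.sub H) (φ.comp H.subtype) ?_
    rw [← MonoidHom.range_eq_top, ← MonoidHom.map_range, range_subtype,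
      ← map_top_of_surjective φ hφ, ← hH, Subgroup.map_sup, (Subgroup.map_eq_bot_iff _).2 le_rfl, sup_bot_eq]
  have hn := Core.isNilpotent_of_le frattini_nilpotent hF
  refine core_p hy hk hL hc hm h hφ (IsPGroup.iff_card.2 ?_)
  refine ⟨_, Nat.eq_prime_pow_of_unique_prime_dvd Nat.card_pos.ne' fun {q} hq hd => ?_⟩
  by_contra hne
  have := Fact.mk hq
  obtain ⟨Q⟩ : Nonempty (Sylow q φ.ker) := inferInstance
  have := Core.isNilpotent_iff_sylow_normal.1 hn q inferInstance Q
  have := Sylow.characteristic_of_normal Q this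
  let K := (Q : Subgroup φ.ker).map φ.ker.subtype
  have : K.Normal := ConjAct.normal_of_characteristic_of_normal
  obtain ⟨m, hm⟩ := IsPGroup.iff_card.1 (Q.isPGroup'.map φ.ker.subtype)
  refine ih (G ⧸ K) (Core.card_quotient_lt fun e => Q.ne_bot_of_dvd_card hd ?_)
    (h.quo hp.out K ?_) (QuotientGroup.lift K φ (map_subtype_le _)) fun a => ?_
  · exact (map_eq_bot_iff_of_injective _ φ.ker.subtype_injective).1 e
  · rw [hm]; exact ((Nat.coprime_primes hp.out hq).2 (Ne.symm hne)).pow_right m
  · obtain ⟨g, rfl⟩ := hφ a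
    exact ⟨g, rfl⟩

omit hp in
/-- coinduction from the alternating to the symmetric group -/
theorem modA {n : ℕ} (h : Mod.{u} p n) : ModA.{u} p (alternatingGroup (Fin n)) := by
  intro W _ _ _ _ hW
  classical
  let V : AddSubgroup (Perm (Fin n) → W) :=
    { carrier := {f | ∀ (a : alternatingGroup (Fin n)) g, f (a * g) = a • f g}
      zero_mem' := fun a g => (smul_zero a).symm
      add_mem' := fun {f f'} h h' a g => by simp [h a g, h' a g]
      neg_mem' := fun {f} h a g => by simp [h a g] }
  let _ : DistribMulAction (Perm (Fin n)) V :=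
    { smul := fun s f => ⟨fun g => f.1 (g * s), fun a g =>
        (congrArg f.1 (mul_assoc _ g s)).trans (f.2 a _)⟩
      one_smul := fun f => Subtype.ext (funext fun g => congrArg f.1 (mul_one g))
      mul_smul := fun s t f => Subtype.ext (funext fun g => congrArg f.1 (mul_assoc g s t).symm)
      smul_zero := fun _ => rfl
      smul_add := fun _ _ _ => rfl }
  have : Nontrivial V := by
    obtain ⟨w, hw⟩ := exists_ne (0 : W)
    refine ⟨⟨fun g => if h : g ∈ alternatingGroup (Fin n) then (⟨g, h⟩ : alternatingGroup _) • w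
      else 0, fun a g => ?_⟩, 0, fun e => hw ?_⟩
    · by_cases hg : g ∈ alternatingGroup (Fin n)
      · simp only [dif_pos hg, dif_pos (mul_mem a.2 hg), ← mul_smul]; rfl
      · simp only [dif_neg hg, dif_neg (mt (mul_mem_cancel_left a.2).1 hg), smul_zero]
    · have := congrFun (congrArg Subtype.val e) 1
      simp only [dif_pos (one_mem _)] at this
      exact (one_smul _ w).symm.trans this
  obtain ⟨f, f0, hf⟩ := h V fun f => Subtype.ext (funext fun g => hW _)
  obtain ⟨g, hg⟩ : ∃ g, f.1 g ≠ 0 := by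
    by_contra! e
    exact f0 (Subtype.ext (funext e))
  refine ⟨f.1 g, hg, fun hs => hf ?_⟩
  have h1 := Core.isSolvable_map (Core.isSolvable_map hs (alternatingGroup (Fin n)).subtype)
    (MulAut.conj g⁻¹).toMonoidHom
  have h2 := Core.isSolvable_subgroupOf h1 (MulAction.stabilizer (Perm (Fin n)) f)
  refine @Group.isSolvable_of_ker_le_range _ _ _ _ _ _ (Subgroup.subtype _)
    (Perm.sign.comp (MulAction.stabilizer (Perm (Fin n)) f).subtype) (fun s hs => ?_) h2 inferInstance
  have e : g * s * g⁻¹ ∈ alternatingGroup (Fin n) := 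
    Normal.conj_mem inferInstance s.1 (Perm.mem_alternatingGroup.2
      (by simpa using MonoidHom.mem_ker.1 hs)) g
  rw [range_subtype, mem_subgroupOf]
  refine ⟨_, ⟨⟨_, e⟩, ?_, rfl⟩, by simp [mul_assoc]⟩
  refine (f.2 _ g).symm.trans ?_
  have : f.1 (g * s) = f.1 g := congrFun (congrArg Subtype.val (show s.1 • f = f from s.2)) g
  simpa using this

theorem exists_hom {α β γ : Type} [Fintype α] [DecidableEq α] [Fintype β] [DecidableEq β]
    [Fintype γ] [DecidableEq γ] (h : Fintype.card α + Fintype.card β = Fintype.card γ) :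
    ∃ f : alternatingGroup α × alternatingGroup β →* alternatingGroup γ, Function.Injective f := by
  obtain ⟨e⟩ : Nonempty (α ⊕ β ≃ γ) := Fintype.card_eq.1 (by simpa using h)
  let j := (e.permCongrHom.toMonoidHom.comp (Perm.sumCongrHom α β)).comp
    ((alternatingGroup α).subtype.prodMap (alternatingGroup β).subtype)
  refine ⟨j.codRestrict _ fun x => ?_, fun x y e' => ?_⟩
  · have h1 : Perm.sign x.1.1 = 1 := x.1.2
    have h2 : Perm.sign x.2.1 = 1 := x.2.2
    change Perm.sign (e.permCongr (Perm.sumCongr x.1.1 x.2.1)) = 1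
    rw [Perm.sign_permCongr, Perm.sign_sumCongr, h1, h2, mul_one]
  · have := Perm.sumCongrHom_injective (e.permCongrHom.injective (congrArg Subtype.val e'))
    exact Prod.ext (Subtype.ext (congrArg Prod.fst this)) (Subtype.ext (congrArg Prod.snd this))

theorem not_sol : ¬ Group.IsSolvable (alternatingGroup (Fin 5)) := fun _ =>
  Perm.not_isSolvable_fin_5 (Group.isSolvable_of_ker_le_range (alternatingGroup (Fin 5)).subtype
    Perm.sign fun s hs => by rw [range_subtype]; exact hs)

omit [Finite G] in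
/-- a section `A_d` gives a subgroup mapping onto `A_n` for `n ≤ d` -/
theorem exists_surj {n d : ℕ} (h : n ≤ d) (hi : Cfsg.Involves (alternatingGroup (Fin d)) G) :
    ∃ (K : Subgroup G) (H : Subgroup K) (φ : H →* alternatingGroup (Fin n)),
      Function.Surjective φ := by
  obtain ⟨K, R, _, ⟨e⟩⟩ := hi
  obtain ⟨f, hf⟩ := exists_hom (α := Fin n) (β := Fin (d - n)) (γ := Fin d) (by simp; omega)
  let j := f.comp (MonoidHom.inl _ _)
  have hj : Function.Injective j := hf.comp fun _ _ e => congrArg Prod.fst e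
  let ψ := e.toMonoidHom.comp (QuotientGroup.mk' (R.subgroupOf K))
  exact ⟨K, j.range.comap ψ, (MonoidHom.ofInjective hj).symm.toMonoidHom.comp
    (ψ.subgroupComap j.range), (MonoidHom.ofInjective hj).symm.surjective.comp
    (ψ.subgroupComap_surjective_of_surjective _ (e.surjective.comp (QuotientGroup.mk'_surjective _)))⟩

theorem main {m d : ℕ} (h : Hy p G) (hd : 5 + m ≤ d) (h2 : 2 * p ∣ m.factorial) (h3 : 2 ≤ m)
    (hm : Mod.{u} p (5 + m) ∨ p.Coprime 60) (hi : Cfsg.Involves (alternatingGroup (Fin d)) G) :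
    False := by
  obtain ⟨K, H, φ, hφ⟩ := exists_surj hd hi
  obtain ⟨f, hf⟩ := exists_hom (α := Fin 5) (β := Fin m) (γ := Fin (5 + m)) (by simp)
  let j := f.comp (MonoidHom.inl _ _)
  have hj : Function.Injective j := hf.comp fun _ _ e => congrArg Prod.fst e
  have : Nontrivial (Fin m) := Fin.nontrivial_iff_two_le.2 h3
  obtain ⟨y, hy⟩ := exists_prime_orderOf_dvd_card' (G := alternatingGroup (Fin m)) p (by
    refine Nat.dvd_of_mul_dvd_mul_left two_pos ?_
    rwa [two_mul_nat_card_alternatingGroup, Nat.card_perm, Nat.card_fin])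
  have e : orderOf (f (1, y)) = p := by rw [orderOf_injective f hf, Prod.orderOf_mk]; simpa using hy
  refine core (y := f (1, y)) (L := j.range) ?_ ⟨1, by rw [e, pow_one]⟩
    (fun hs => not_sol ((Core.isSolvable_congr (MonoidHom.ofInjective hj)).2 hs)) ?_
    (hm.imp modA fun hm => ?_) H ((h.sub K).sub H) φ hφ
  · rw [alternatingGroup.center_eq_bot (by simp; omega), mem_bot]
    intro e1
    rw [e1, orderOf_one] at e
    exact hp.out.one_lt.ne e
  · rintro _ ⟨a, rfl⟩
    change f (a, 1) * _ = _ * f (a, 1)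
    rw [← map_mul, ← map_mul]; simp
  · rw [← Nat.card_congr (MonoidHom.ofInjective hj).toEquiv, nat_card_alternatingGroup]
    simpa [Nat.factorial] using hm

end Alt

open Alt in
theorem altInv (m2 : Mod.{u} 2 9) (m5 : Mod.{u} 5 10) {G : Type u} [Group G] [Finite G] (p : ℕ)
    [hp : Fact p.Prime] (hp3 : p ≠ 3) (h : ∀ x : G, x ∉ Subgroup.center G →
      (∃ k : ℕ, orderOf x = p ^ k) → Group.IsSolvable (Subgroup.centralizer ({x} : Set G)))
    (d : ℕ) (hinv : Cfsg.Involves (alternatingGroup (Fin d)) G) :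
    d ≤ p + 4 + (if p = 2 then 2 else 0) := by
  by_contra hd
  by_cases h2 : p = 2
  · subst h2
    exact main (m := 4) h (by simp at hd; omega) (by decide) (by omega) (Or.inl m2) hinv
  have h1 := hp.out.two_le
  refine main (m := p) h (by simp [h2] at hd; omega) ?_ h1 ?_ hinv
  · exact Nat.Coprime.mul_dvd_of_dvd_of_dvd ((Nat.coprime_primes Nat.prime_two hp.out).2 (Ne.symm h2))
      (Nat.dvd_factorial two_pos h1) (Nat.dvd_factorial hp.out.pos le_rfl)
  · by_cases h5 : p = 5
    · subst h5; exact Or.inl m5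
    · refine Or.inr ?_
      rw [show 60 = 2 * (2 * (3 * 5)) from rfl]
      simp only [Nat.coprime_mul_iff_right]
      exact ⟨(Nat.coprime_primes hp.out Nat.prime_two).2 h2,
        (Nat.coprime_primes hp.out Nat.prime_two).2 h2,
        (Nat.coprime_primes hp.out Nat.prime_three).2 hp3,
        (Nat.coprime_primes hp.out Nat.prime_five).2 h5⟩

end Cfsg.Agent.AD
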