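import Cfsg.Agent.Lib.AD.TwoC
import Cfsg.Agent.Lib.AD.Eig
import Cfsg.Agent.Lib.AD.Def

/-! # `S₉` in characteristic 2 -/

namespace Cfsg.Agent.AD
open Equiv Pc

universe u

theorem mod2 : Mod.{u} 2 9 := by
  intro V _ _ _ _ hp
  by_contra h
  obtain ⟨w, hw, hs⟩ := fix2 hp
  simp only [List.forall_mem_cons] at hs
  obtain ⟨h1, h2, h3, h4, h5, h6, h7, -⟩ := hs
  have hn : 9 ≤ 16 := by norm_num
  have e {τ : Perm (Fin 9)} (h : τ • w = w) (g : Perm (Fin 9)) : g • w = 1 • ((g * τ) • w) := by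
    rw [one_smul, mul_smul, h]
  have hR (R : ℕ → V → Prop) (k) (hk : Good R (fun g : Perm (Fin 9) => g • w) k) :
      Good R (fun g : Perm (Fin 9) => g • w) (Two.nR k) :=
    ((((((hk.stp hn hp 0 4 _ (by decide +kernel) (e h7)).stp hn hp 4 6 _ (by decide +kernel) (e h6)).stp
      hn hp 0 2 _ (by decide +kernel) (e h5)).stp hn hp 6 7 _ (by decide +kernel) (e h4)).stp
      hn hp 4 5 _ (by decide +kernel) (e h3)).stp hn hp 2 3 _ (by decide +kernel) (e h2)).stp
      hn hp 0 1 _ (by decide +kernel) (e h1)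
  exact hw (Pc.main hn hp (by norm_num) (by decide +kernel) (AddMonoidHom.id V) hR hR
    (hX_of hn h Two.hY) Two.hC Two.hT)

end Cfsg.Agent.AD
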